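import Cfsg.Agent.JR.BL2
import Cfsg.Agent.BG2.P4c

/-! The local data for the character theory of groups of Janko-Ree type. -/

set_option autoImplicit false
set_option linter.unusedSectionVars false

namespace CF.JR
open Subgroup Cfsg CF.BG CF.GW
open CF.Ab2 (p2)

universe u
variable {G : Type*} [Group G] [Finite G] {q : ℕ} {K E S F K' E' Θ T : Subgroup G} {s t v x y ρ : G}

namespace Bs
variable (h : Bs t v s ρ K E S F K' E' Θ T q)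
include h

theorem FT : F ≤ 𝐍 T := h.FC.trans ((cent_le_norm _).trans h.nT)

theorem cTF : ♯(T ⊔ F : Subgroup G) = ♯T * ♯F :=
  card_sup_of_inf_bot (.inr h.FT) (BG.inf_eq_bot_of_coprime h.copT.symm)

theorem oTF : Odd (♯(T ⊔ F : Subgroup G)) := h.cTF ▸ h.oT.mul h.pk.le.oddF

theorem dW : DProd (V4 t v) (T ⊔ F) (V4 t v ⊔ (T ⊔ F)) :=
  .mk' (sup_le h.TC h.FC) (h.fp.pi.inf_eq_bot (odd_iff_pi.1 h.oTF))

theorem WC : V4 t v ⊔ (T ⊔ F) ≤ 𝐂 (V4 t v) := sup_le h.fp.abel h.dW.cent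

theorem cW : ♯(V4 t v ⊔ (T ⊔ F) : Subgroup G) = 4 * (♯T * ♯F) := by rw [← h.dW.card, h.fp.card, h.cTF]

theorem sW : s ∉ V4 t v ⊔ (T ⊔ F) := fun e => h.sV ((h.dW.sdprod.hall_left h.fp.pi (odd_iff_pi.1 h.oTF)).mem_normal
  h.dW.normal_left.norm e h.pk'.iv.piElt)

theorem idxW (hx : x ∈ 𝐂 (V4 t v)) : x ∈ V4 t v ⊔ (T ⊔ F) ∨ x * s⁻¹ ∈ V4 t v ⊔ (T ⊔ F) :=
  (em _).imp_right fun n => idx2 h.WC (by rw [h.cV, h.cW]; ring) hx (inv_mem h.sC) n (mt inv_mem_iff.1 h.sW)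

theorem WT : V4 t v ⊔ (T ⊔ F) ≤ 𝐂 (T ⊓ 𝐂 F) := sup_le (cent_symm (inf_le_left.trans h.TC))
  (sup_le (h.cyc.abel.cent le_rfl inf_le_left) (cent_symm inf_le_right))

theorem inv_iff (hx : x ∈ V4 t v ⊔ (T ⊔ F)) : x * s * (x * s) = 1 ↔ x ∈ V4 t v ⊔ T := by
  have i := h.pk'.iv
  have key : ∀ a ∈ V4 t v, ∀ b ∈ 𝐂 (V4 t v), a * b * s * (a * b * s) = b * (s * b * s⁻¹) := fun a ha b hb => by
    rw [i.inv_eq, show a * b * s * (a * b * s) = a * (b * s * a) * (b * s) by group,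
      ← mem_cent.1 (mul_mem hb h.sC) a ha, ← mul_assoc a a, h.fp.sq ha]; group
  refine ⟨fun e => ?_, fun m => ?_⟩
  · obtain ⟨a, ha, b, hb, rfl⟩ := h.dW.sdprod.exists_mul hx
    have c := h.dW.cent hb
    have o := odd_orderOf h.oTF hb
    have l := cent_le_cent1 (left_mem_V4 t v)
    rw [key a ha b c] at e
    exact mul_mem_sup ha (h.mem_T c o (h.cop.symm.coprime_dvd_left (orderOf_dvd_card' (mem_inf.2 ⟨h.pk.mem_K_of_inv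
      (l c) (l h.sC) o (eq_inv_of_mul_eq_one_right e), cent_le_cent1 (right_mem_V4 t v) c⟩))))
  · obtain ⟨a, ha, b, hb, rfl⟩ := (mem_sup_norm' (norm_of_cent h.TC)).1 m
    rw [key a ha b (h.TC hb), h.inv b hb, mul_inv_cancel]

theorem cVT : ♯(V4 t v ⊔ T : Subgroup G) = 4 * ♯T := by
  rw [card_sup_of_inf_bot (.inr (norm_of_cent h.TC)) (h.fp.pi.inf_eq_bot (odd_iff_pi.1 h.oT)), h.fp.card]

theorem cJ : Nat.card {k : ↥(V4 t v ⊔ (T ⊔ F)) // (k * s) * (k * s) = (1 : G)} = 4 * ♯T :=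
  have l : V4 t v ⊔ T ≤ V4 t v ⊔ (T ⊔ F) := sup_le_sup_left le_sup_left _
  h.cVT ▸ Nat.card_congr ⟨fun k => ⟨k.1, (h.inv_iff k.1.2).1 k.2⟩, fun k => ⟨⟨k, l k.2⟩,
    (h.inv_iff (l k.2)).2 k.2⟩, fun _ => rfl, fun _ => rfl⟩

theorem copW : (♯(V4 t v ⊔ T ⊓ 𝐂 F : Subgroup G)).Coprime
    ((V4 t v ⊔ T ⊓ 𝐂 F).relIndex (V4 t v ⊔ (T ⊔ F))) := by
  have d := h.cyc.abel.dprod_cent_comm h.FT h.copT
  have o := h.oT.of_dvd_nat (card_dvd (inf_le_left : T ⊓ 𝐂 F ≤ T))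
  have c := card_sup_of_inf_bot (.inr (norm_of_cent ((inf_le_left : T ⊓ 𝐂 F ≤ T).trans h.TC)))
    (h.fp.pi.inf_eq_bot (odd_iff_pi.1 o))
  have e := card_mul_relIndex (sup_le_sup_left ((inf_le_left : T ⊓ 𝐂 F ≤ T).trans (le_sup_left (b := F))) (V4 t v))
  rw [h.cW, ← d.card, c, h.fp.card, mul_assoc, mul_assoc] at e
  rw [Nat.eq_of_mul_eq_mul_left (card_pos' _) (Nat.eq_of_mul_eq_mul_left four_pos e), c, h.fp.card]
  exact Nat.Coprime.mul_left (Nat.Coprime.pow_left 2 ((h.oT.of_dvd_nat (card_dvd d.right_le)).mul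
    h.pk.le.oddF).coprime_two_left) ((d.coprime_of_cyc h.cyc).mul_right
      (h.copT.symm.coprime_dvd_left (card_dvd inf_le_left)))

variable (b : ∀ y ∈ T, ρ ∈ 𝐂₁ y → y = 1)
include b

theorem cen' (hy : y ∈ T) (y1 : y ≠ 1) : 𝐂₁ y ≤ 𝐂 (V4 t v) := h.cen hy y1 fun e => y1 (b y hy e)

theorem mod3 : ♯T % 3 = 1 := by
  have := BG2.card_modEq_card_cent Nat.prime_three h.cy.pi.zpowers (zpowers_le.2 (h.nT h.cy.norm))
  rwa [eq_bot_of_forall (H := T ⊓ 𝐂 (zpowers ρ)) fun y hy => b y hy.1 (mem_cent1_comm.1 (cent_zpowers ρ ▸ hy.2)), card_bot] at this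

theorem copI : (♯T).Coprime (𝐂₁ t).index := Nat.coprime_of_dvd fun l hl d e => by
  have := Fact.mk hl
  obtain ⟨P, m⟩ := exists_sylow_le_of_cent (F := 𝐂 (V4 t v)) (p := l) (fun x hx x1 ⟨k, o⟩ => h.cen' b (h.mem_T hx
    (o ▸ (h.oT.of_dvd_nat d).pow) (o ▸ (h.copT.symm.coprime_dvd_left d).pow_left k)) x1) (d.trans (card_dvd h.TC))
  exact P.not_dvd_index (e.trans (index_dvd_of_le (m.trans (cent_le_cent1 (left_mem_V4 t v)))))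

theorem cs (n : T ⊓ 𝐂 F ≠ ⊥) : ∃ Q : ℤ, CS t v s ρ (T ⊓ 𝐂 F) (V4 t v ⊔ (T ⊔ F)) Q (♯F) ∧ (Q = q ∨ Q = -q) := by
  have o := Nat.odd_iff.1 h.oT
  have m := h.mod3 b
  have n1 := (one_lt_card_iff_ne_bot T).2 (ne_bot_of_le_ne_bot n inf_le_left)
  obtain ⟨Q, e, a, q8⟩ : ∃ Q : ℤ, (Q = q ∨ Q = -q) ∧ (Q - 1 = 4 * ♯T ∨ Q - 1 = -(4 * ♯T)) ∧ Q % 8 = 5 := by
    have := h.cΘ
    rcases h.tq.card with c | c
    exacts [⟨q, by omega⟩, ⟨-q, by omega⟩]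
  have a1 : |Q| = q := by rcases e with rfl | rfl <;> simp
  have a2 : |Q - 1| = 4 * ♯T := by rcases a with a | a <;> simp [a, abs_mul]
  obtain ⟨p, k, hp, -, ek⟩ := h.pk.isL.pp
  refine ⟨Q, ⟨h.fp, h.pk.one, h.pk'.iv, h.sC, h.S_eq ▸ h.pk.syl, h.sW, le_sup_left,
    inf_le_left.trans (le_sup_left.trans le_sup_right), h.WC, h.WT, fun _ => h.idxW, n,
    h.oT.of_dvd_nat (card_dvd inf_le_left), h.copW, h.inv.mono inf_le_left, fun y hy y1 x hx => ?_, h.cy.l, h.cy.r,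
    zpowers_le.1 (norm_inf (zpowers_le.2 (h.nT h.cy.norm)) (zpowers_le.2 (norm_le_norm_cent _
      (cent_le_norm _ h.ρF)))), fun _ _ => h.pk.oneC, q8, by omega, ⟨p, k, hp, by omega⟩, ?_, ?_, ?_, ?_⟩, e⟩
  · refine (h.idxW (h.cen' b hy.1 y1 hx)).resolve_right fun m => h.sy hy.1 y1 ?_
    simpa using mul_mem (inv_mem (cent_le_cent1 hy (h.WT m))) hx
  · rw [h.pk.cardC, h.pk.cardF, a1, ← sq_abs, a1]
    push_cast [Nat.one_le_pow 2 q h.pk.oq.pos]; rfl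
  · rw [h.cV, a2]; push_cast; ring
  · rw [h.cJ, a2]; push_cast; rfl
  · have := Nat.isCoprime_iff_coprime.2 (h.copI b)
    rcases a with a | a <;> rw [a]
    · rwa [Int.mul_ediv_cancel_left _ four_ne_zero]
    · rwa [← mul_neg, Int.mul_ediv_cancel_left _ four_ne_zero, IsCoprime.neg_left_iff]

end Bs

theorem csh_of (bl : BLH.{u}) : CSH.{u} := fun G _ _ t K E q h h3 c ⟨v, m, i, y, hy, y1, o, k⟩ => by
  obtain ⟨s, ρ, S, F, K', E', Θ, T, b⟩ := h.exists_bs h3 m i (c v m i)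
  obtain ⟨Q, cs⟩ := b.cs (bl G _ _ _ _ _ _ _ _ _ _ _ _ _ b) (ne_bot_of_mem ⟨b.mem_T (cent_V4 t v ▸ ⟨h.lK hy.1, hy.2⟩) o
    (b.cop.symm.coprime_dvd_left (orderOf_dvd_card' hy)), cent_symm (cent_zpowers y ▸ fun x hx => k x ⟨b.pk.FE hx,
      cent_le_cent1 (right_mem_V4 t v) (b.FC hx)⟩ (odd_orderOf b.pk.le.oddF hx)) (mem_zpowers y)⟩ y1)
  exact ⟨v, s, ρ, _, _, Q, b.pk.cardF ▸ cs⟩

end CF.JR
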